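import Mathlib

/-!
# Generators of commuting families of different prime orders (helper202; after helper520)
-/

set_option autoImplicit false

namespace Cfsg.Agent.H202.G2

/-- a generator of a commuting family of elements of different prime orders, all different from `p` -/
theorem exists_gen {G ι : Type*} [Group G] [Finite ι] {g : ι → G} {r : ι → ℕ} (hr : ∀ i, (r i).Prime)
    (hinj : Function.Injective r) (hpow : ∀ i, g i ^ r i = 1) (hc : ∀ i j, g i * g j = g j * g i) {p : ℕ}
    (hp : p.Prime) (hrp : ∀ i, r i ≠ p) :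
    ∃ s ∈ Subgroup.closure (Set.range g), (∀ i, g i ∈ Subgroup.zpowers s) ∧ ∃ n : ℕ, ¬ p ∣ n ∧ s ^ n = 1 := by
  classical
  have := Fintype.ofFinite ι
  have hcc : ∀ j, ∀ a ∈ Subgroup.closure (Set.range g), Commute a (g j) := by
    intro j a ha
    induction ha using Subgroup.closure_induction with
    | mem y hy => obtain ⟨i, rfl⟩ := hy; exact hc i j
    | one => exact Commute.one_left _
    | mul a b _ _ ha hb => exact Commute.mul_left ha hb
    | inv a _ ha => exact Commute.inv_left ha
  have key : ∀ S : Finset ι, ∃ s ∈ Subgroup.closure (Set.range g), (∀ i ∈ S, ∃ k : ℕ, g i = s ^ k) ∧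
      s ^ (∏ i ∈ S, r i) = 1 := by
    intro S
    induction S using Finset.induction_on with
    | empty => exact ⟨1, Subgroup.one_mem _, fun i hi => absurd hi (Finset.notMem_empty i), one_pow _⟩
    | insert j S hj ih =>
      obtain ⟨s, hs, h1, h2⟩ := ih
      have hcom : Commute s (g j) := hcc j s hs
      have hcop : Nat.Coprime (r j) (∏ i ∈ S, r i) := by
        rw [Nat.coprime_prod_right_iff]
        intro i hi
        rw [Nat.coprime_primes (hr j) (hr i)]
        exact fun h => hj (hinj h ▸ hi)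
      have hs1 : (s * g j) ^ r j = s ^ r j := by rw [hcom.mul_pow, hpow, mul_one]
      have hs2 : (s * g j) ^ (∏ i ∈ S, r i) = g j ^ (∏ i ∈ S, r i) := by rw [hcom.mul_pow, h2, one_mul]
      obtain ⟨m, hm⟩ := exists_pow_eq_self_of_coprime (x := s) (n := r j)
        (hcop.coprime_dvd_right (orderOf_dvd_of_pow_eq_one h2))
      obtain ⟨m', hm'⟩ := exists_pow_eq_self_of_coprime (x := g j) (n := ∏ i ∈ S, r i)
        (hcop.symm.coprime_dvd_right (orderOf_dvd_of_pow_eq_one (hpow j)))
      refine ⟨s * g j, Subgroup.mul_mem _ hs (Subgroup.subset_closure ⟨j, rfl⟩), ?_, ?_⟩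
      · intro i hi
        rcases Finset.mem_insert.1 hi with rfl | hi
        · exact ⟨(∏ i ∈ S, r i) * m', by rw [pow_mul, hs2, hm']⟩
        · obtain ⟨k, hk⟩ := h1 i hi
          exact ⟨r j * m * k, by rw [pow_mul, pow_mul, hs1, hm, hk]⟩
      · rw [Finset.prod_insert hj, pow_mul, hs1, ← pow_mul, mul_comm, pow_mul, h2, one_pow]
  obtain ⟨s, hs, h1, h2⟩ := key Finset.univ
  refine ⟨s, hs, fun i => ?_, _, ?_, h2⟩
  · obtain ⟨k, hk⟩ := h1 i (Finset.mem_univ i)
    rw [hk]
    exact Subgroup.pow_mem _ (Subgroup.mem_zpowers s) k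
  · intro hdvd
    obtain ⟨i, -, hi⟩ := (Nat.Prime.prime hp).exists_mem_finset_dvd hdvd
    exact hrp i ((Nat.prime_dvd_prime_iff_eq hp (hr i)).1 hi).symm

end Cfsg.Agent.H202.G2
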