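import Cfsg.Agent.H566.G2.Fix
import Cfsg.Agent.H202.G2.Gen

/-!
# S3509, the groups `G₂(q)`: assembly for inner members (helper202), abstract form
-/

set_option autoImplicit false
open Cfsg

namespace Cfsg.Agent.H202.G2

open Cfsg.Agent.H161.Oct Cfsg.Agent.H106.RC Cfsg.Agent.H566.G2 MulAction

variable {F : Type} [Field F] {G Ω : Type} [Group G] [MulAction G Ω] {N : Subgroup G}

/-- no cover by members preserving a nondegenerate `F[e]` -/
def NoPK (Ω : Type) [MulAction G Ω] (f : N ≃* AutO F) : Prop :=
  ∀ (ι : Type) [Finite ι] (x : ι → G) (r : ι → ℕ) (e : V F), dsc e ≠ 0 → PF x r → Cov Ω x →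
    ∀ y : ι → AutO F, (∀ i, x i = (f.symm (y i) : G)) → (∀ i, PK e (y i)) → False

theorem mem_fix {e : V F} {s t : AutO F} (hs : (s : V F ≃ₗ[F] V F) e = e) (ht : t ∈ Subgroup.zpowers s) :
    (t : V F ≃ₗ[F] V F) e = e :=
  mem_MK.1 ((Subgroup.zpowers_le (H := MK e)).2 (mem_MK.2 hs) ht)

theorem comm_zp {H : Type*} [Group H] {s t c : H} (hc : c * s = s * c) (ht : t ∈ Subgroup.zpowers s) :
    c * t = t * c := by
  obtain ⟨k, rfl⟩ := Subgroup.mem_zpowers_iff.1 ht
  exact (Commute.zpow_right (show Commute c s from hc) k)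

theorem pf_pow {ι : Type} {x : ι → G} {r : ι → ℕ} (hx : PF x r) (f : N ≃* AutO F) (hin : ∀ i, x i ∈ N) (i : ι) :
    (f ⟨x i, hin i⟩) ^ r i = 1 := by
  rw [← map_pow, show (⟨x i, hin i⟩ : N) ^ r i = 1 from Subtype.ext (hx.pow i), map_one]

theorem pf_comm {ι : Type} {x : ι → G} {r : ι → ℕ} (hx : PF x r) (f : N ≃* AutO F) (hin : ∀ i, x i ∈ N) (i j : ι) :
    f ⟨x i, hin i⟩ * f ⟨x j, hin j⟩ = f ⟨x j, hin j⟩ * f ⟨x i, hin i⟩ := by
  rw [← map_mul, ← map_mul,
    show (⟨x i, hin i⟩ : N) * ⟨x j, hin j⟩ = ⟨x j, hin j⟩ * ⟨x i, hin i⟩ from Subtype.ext (hx.comm i j)]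

/-- no member of order `p` -/
theorem case_one [Finite F] {p : ℕ} [CharP F p] (hp : p.Prime)
    (hdet : ∀ g ∈ AutO F, LinearMap.det (g : V F →ₗ[F] V F) = 1) {f : N ≃* AutO F} (hR : NoPK Ω f)
    {ι : Type} [Finite ι] {x : ι → G} {r : ι → ℕ} (hx : PF x r) (hcov : Cov Ω x)
    (hin : ∀ i, x i ∈ N) (hrp : ∀ i, r i ≠ p) : False := by
  obtain ⟨s, -, hs, m, hm, hsm⟩ := exists_gen (g := fun i => f ⟨x i, hin i⟩) hx.prime hx.inj
    (pf_pow hx f hin) (pf_comm hx f hin) hp hrp
  obtain ⟨e, he, hd⟩ := exists_e hdet s.2 hm (by simpa using congrArg Subtype.val hsm)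
  refine hR ι x r e hd hx hcov (fun i => f ⟨x i, hin i⟩) (fun i => by simp) fun i => ⟨0, 1, ?_⟩
  rw [zero_smul, zero_add, one_smul]
  exact mem_fix he (hs i)

/-- all members inner, from the M-rule, the determinant and the mixed case -/
theorem inner_of [Nonempty Ω] [Finite F] {p : ℕ} [CharP F p] (hp : p.Prime)
    (hdet : ∀ g ∈ AutO F, LinearMap.det (g : V F →ₗ[F] V F) = 1)
    (hmix : ∀ {s u : AutO F}, s ≠ 1 → ∀ {m : ℕ}, ¬ p ∣ m → s ^ m = 1 → u ^ p = 1 → s * u = u * s →
      (∃ e : V F, (s : V F ≃ₗ[F] V F) e = e ∧ dsc e ≠ 0 ∧ PK e u) ∨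
      (p ≠ 2 ∧ ∃ z : AutO F, z ^ 2 = 1 ∧ z ≠ 1 ∧ s * z = z * s ∧ u * z = z * u ∧
        (∀ t : AutO F, t ^ 2 = 1 → t ≠ 1 →
          (∀ v, (s : V F ≃ₗ[F] V F) v = v → (t : V F ≃ₗ[F] V F) v = v) → t = z) ∧
        ∀ N : Subgroup (AutO F), (∀ c, c * s = s * c → ∀ n ∈ N, c * n * c⁻¹ ∈ N) → u ∈ N → z ∈ N))
    (hE : Env G Ω N) {f : N ≃* AutO F} (hR : NoPK Ω f)
    {ι : Type} [Finite ι] {x : ι → G} {r : ι → ℕ} (hx : PF x r) (hcov : Cov Ω x) (hin : ∀ i, x i ∈ N) : False := by
  classical
  by_cases hrp : ∀ i, r i ≠ p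
  · exact case_one hp hdet hR hx hcov hin hrp
  push Not at hrp
  obtain ⟨i0, hi0⟩ := hrp
  have hne : ∀ i, i ≠ i0 → r i ≠ p := fun i hi h => hi (hx.inj (h.trans hi0.symm))
  obtain ⟨s, hscl, hs, m, hm, hsm⟩ := exists_gen (g := fun i : {i // i ≠ i0} => f ⟨x i, hin i⟩)
    (r := fun i : {i // i ≠ i0} => r i) (fun i => hx.prime i) (fun i j h => Subtype.ext (hx.inj h))
    (fun i => pf_pow hx f hin i) (fun i j => pf_comm hx f hin i j) hp (fun i => hne i i.2)
  have hs' : ∀ i, i ≠ i0 → f ⟨x i, hin i⟩ ∈ Subgroup.zpowers s := fun i hi => hs ⟨i, hi⟩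
  -- the members different from `x i0` do not cover
  have hsub : (∀ ω : Ω, ∃ i, i ≠ i0 ∧ x i • ω = ω) → False := by
    intro h
    refine case_one hp hdet hR (ι := {i // i ≠ i0}) (x := fun i => x i) (r := fun i => r i)
      ⟨fun i => hx.prime i, fun i j h => Subtype.ext (hx.inj h), fun i => hx.pow i, fun i => hx.ne i,
        fun i j => hx.comm i j⟩ ?_ (fun i => hin i) (fun i => hne i i.2)
    intro ω
    obtain ⟨i, hi, hω⟩ := h ω
    exact ⟨⟨i, hi⟩, hω⟩
  have hs1 : s ≠ 1 := by
    intro h1
    have hall : ∀ ω : Ω, x i0 • ω = ω := by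
      intro ω
      obtain ⟨i, hi⟩ := hcov ω
      by_cases h : i = i0
      · rw [← h]; exact hi
      · exfalso
        have h2 := hs' i h
        rw [h1, Subgroup.zpowers_one_eq_bot, Subgroup.mem_bot, MulEquiv.map_eq_one_iff] at h2
        exact hx.ne i (congrArg Subtype.val h2)
    exact hx.ne i0 (hE.single hall)
  have hcom : s * f ⟨x i0, hin i0⟩ = f ⟨x i0, hin i0⟩ * s := by
    have : Subgroup.closure (Set.range fun i : {i // i ≠ i0} => f ⟨x i, hin i⟩)
        ≤ Subgroup.centralizer {f ⟨x i0, hin i0⟩} := by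
      rw [Subgroup.closure_le]
      rintro _ ⟨i, rfl⟩
      rw [SetLike.mem_coe, Subgroup.mem_centralizer_singleton_iff]
      exact pf_comm hx f hin _ _
    exact Subgroup.mem_centralizer_singleton_iff.1 (this hscl)
  have hup : (f ⟨x i0, hin i0⟩) ^ p = 1 := by
    have := pf_pow hx f hin i0
    rwa [hi0] at this
  rcases hmix hs1 hm hsm hup hcom with ⟨e, he, hd, hPK⟩ | ⟨hp2, z, hz2, hz1, hsz, huz, huniq, hN⟩
  · refine hR ι x r e hd hx hcov (fun i => f ⟨x i, hin i⟩) (fun i => by simp) fun i => ?_
    by_cases h : i = i0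
    · subst h; exact hPK
    · refine ⟨0, 1, ?_⟩
      rw [zero_smul, zero_add, one_smul]
      exact mem_fix he (hs' i h)
  · -- the elements fixing all points which are not fixed by the other members
    let N0 : Subgroup (AutO F) :=
      { carrier := {g | ∀ ω : Ω, (∀ i, i ≠ i0 → x i • ω ≠ ω) → (f.symm g : G) • ω = ω}
        mul_mem' := by
          intro a b ha hb ω hω
          rw [map_mul, Subgroup.coe_mul, mul_smul, hb ω hω, ha ω hω]
        one_mem' := by
          intro ω _
          rw [map_one, Subgroup.coe_one, one_smul]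
        inv_mem' := by
          intro a ha ω hω
          rw [map_inv, Subgroup.coe_inv, inv_smul_eq_iff, ha ω hω] }
    have hN0 : ∀ g, g ∈ N0 ↔ ∀ ω : Ω, (∀ i, i ≠ i0 → x i • ω ≠ ω) → (f.symm g : G) • ω = ω := fun g => Iff.rfl
    have hzN : z ∈ N0 := by
      apply hN N0
      · intro c hc n hn
        rw [hN0] at hn ⊢
        intro ω hω
        have hcx : ∀ i, i ≠ i0 → (f.symm c : G) * x i = x i * (f.symm c : G) := by
          intro i hi
          have h1 := comm_zp hc (hs' i hi)
          have h2 := congrArg (fun g => (f.symm g : G)) h1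
          simpa only [map_mul, Subgroup.coe_mul, MulEquiv.symm_apply_apply] using h2
        have h3 : (f.symm n : G) • ((f.symm c : G)⁻¹ • ω) = (f.symm c : G)⁻¹ • ω := by
          apply hn
          intro i hi h
          apply hω i hi
          have h2 : (f.symm c : G) • (x i • ((f.symm c : G)⁻¹ • ω)) = ω := by rw [h, smul_inv_smul]
          rw [← mul_smul, hcx i hi, mul_smul, smul_inv_smul] at h2
          exact h2
        rw [map_mul, map_mul, map_inv, Subgroup.coe_mul, Subgroup.coe_mul, Subgroup.coe_inv, mul_smul,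
          mul_smul, h3, smul_inv_smul]
      · rw [hN0]
        intro ω hω
        rw [MulEquiv.symm_apply_apply]
        obtain ⟨i, hi⟩ := hcov ω
        by_cases h : i = i0
        · rw [← h]; exact hi
        · exact absurd hi (hω i h)
    have hzG : (f.symm z : G) ≠ 1 := by
      intro h
      apply hz1
      have h1 : f.symm z = 1 := Subtype.ext h
      rwa [MulEquiv.map_eq_one_iff] at h1
    by_cases h2 : ∃ i, i ≠ i0 ∧ r i = 2
    · obtain ⟨i, hi, hi2⟩ := h2
      have htz : f ⟨x i, hin i⟩ = z := by
        apply huniq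
        · have := pf_pow hx f hin i
          rwa [hi2] at this
        · intro h
          rw [MulEquiv.map_eq_one_iff] at h
          exact hx.ne i (congrArg Subtype.val h)
        · intro v hv
          exact mem_fix hv (hs' i hi)
      apply hsub
      intro ω
      by_contra hno
      push Not at hno
      have h3 := (hN0 z).1 hzN ω hno
      rw [← htz, MulEquiv.symm_apply_apply] at h3
      exact hno i hi h3
    · push Not at h2
      have hcx : ∀ i, i ≠ i0 → (f.symm z : G) * x i = x i * (f.symm z : G) := by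
        intro i hi
        have h1 := comm_zp hsz.symm (hs' i hi)
        have h2 := congrArg (fun g => (f.symm g : G)) h1
        simpa only [map_mul, Subgroup.coe_mul, MulEquiv.symm_apply_apply] using h2
      refine case_one hp hdet hR (ι := ι) (x := Function.update x i0 (f.symm z : G))
        (r := Function.update r i0 2) ⟨?_, ?_, ?_, ?_, ?_⟩ (hcov.update i0 ?_) ?_ ?_
      · intro i
        by_cases h : i = i0
        · subst h; rw [Function.update_self]; exact Nat.prime_two
        · rw [Function.update_of_ne h]; exact hx.prime i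
      · intro i j hij
        by_cases h : i = i0
        · by_cases h' : j = i0
          · rw [h, h']
          · subst h
            rw [Function.update_self, Function.update_of_ne h'] at hij
            exact absurd hij.symm (h2 j h')
        · by_cases h' : j = i0
          · subst h'
            rw [Function.update_self, Function.update_of_ne h] at hij
            exact absurd hij (h2 i h)
          · rw [Function.update_of_ne h, Function.update_of_ne h'] at hij
            exact hx.inj hij
      · intro i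
        by_cases h : i = i0
        · subst h
          rw [Function.update_self, Function.update_self, ← Subgroup.coe_pow, ← map_pow, hz2, map_one,
            Subgroup.coe_one]
        · rw [Function.update_of_ne h, Function.update_of_ne h]; exact hx.pow i
      · intro i
        by_cases h : i = i0
        · subst h; rw [Function.update_self]; exact hzG
        · rw [Function.update_of_ne h]; exact hx.ne i
      · intro i j
        by_cases h : i = i0
        · by_cases h' : j = i0
          · rw [h, h']
          · subst h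
            rw [Function.update_self, Function.update_of_ne h']
            exact hcx j h'
        · by_cases h' : j = i0
          · subst h'
            rw [Function.update_self, Function.update_of_ne h]
            exact (hcx i h).symm
          · rw [Function.update_of_ne h, Function.update_of_ne h']
            exact hx.comm i j
      · intro ω _ hj
        exact (hN0 z).1 hzN ω hj
      · intro i
        by_cases h : i = i0
        · subst h; rw [Function.update_self]; exact (f.symm z).2
        · rw [Function.update_of_ne h]; exact hin i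
      · intro i
        by_cases h : i = i0
        · subst h; rw [Function.update_self]; exact hp2.symm
        · rw [Function.update_of_ne h]; exact hne i h

end Cfsg.Agent.H202.G2
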