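import Cfsg.Agent.H202.G2.Asm
import Cfsg.Agent.H566.G2.Mixed
import Cfsg.Agent.H547.G2.RuleK
import Cfsg.Agent.H244.S3509.Facts
import Cfsg.Agent.H248.G2.Det

/-!
# S3509, the groups `G₂(q)`, `3 ≤ q`: no cover by inner members (helper202)
-/

set_option autoImplicit false
open Cfsg

namespace Cfsg.Agent.H202.G2

open Cfsg.Agent.H161.Oct Cfsg.Agent.H106.RC Cfsg.Agent.H566.G2 MulAction

variable {F : Type} [Field F]

/-- (D) all members inner -/
theorem inner_G2 {G Ω ι : Type} [Group G] [Finite G] [MulAction G Ω] [Finite Ω] [Nonempty Ω] [Finite ι]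
    {N : Subgroup G} [Finite F] (hq : 3 ≤ Nat.card F)
    (hC : ∀ (S : Type) [Group S] [Finite S], IsSimpleGroup S → ¬ IsMulCommutative S → Cl S → ¬ Exc S → RC S)
    (hE : Env G Ω N) (f : N ≃* AutO F) {x : ι → G} {r : ι → ℕ} (hx : PF x r) (hcov : Cov Ω x)
    (hin : ∀ i, x i ∈ N) : False := by
  obtain ⟨p, hp⟩ := CharP.exists F
  have hpp : p.Prime := (CharP.char_is_prime_or_zero F p).resolve_right
    (fun h => CharP.char_ne_zero_of_finite F p h)
  have hdet := Cfsg.Agent.H248.G2.det_eq_one hq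
  refine inner_of (f := f) hpp hdet ?_ hE ?_ hx hcov hin
  · intro s u hs1 m hm hsm hup hsu
    exact mixed_alg hs1 (hdet _ s.2) hm hsm hup hsu
  · intro ι' _ x' r' e hd hx' hcov' y hy hK
    exact Cfsg.Agent.H547.G2.rule_K hC hE f (Cfsg.Agent.H244.S3509G2.mfacts hq hd) hx' hcov' hy hK

end Cfsg.Agent.H202.G2
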